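import Cfsg.Agent.H928.War.Rgd

/-!
Rank one nodes of a root group datum: the rank one property `R1` from a ternary law (S2453, layer L9).

* `IsMu R i s` : `s` represents `s_i` and lies in `X_{-i} X_i X_{-i}`;
* `R1_of_tern` : if the set of these is closed under products of three, then `R1 T X i m` for each of them;
* `R1_of_param` : the same from a parametrization of `X_i`;
* `pp_of_R1` : all nodes have such an element: `PP p Y`.
-/

set_option autoImplicit false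
set_option linter.unusedSectionVars false

namespace Cfsg.Agent.H256.War.RankOne

open CoxeterSystem Cfsg.Agent.ChevalleyStructure.CoxeterGeom Cfsg.Agent.Tits.Roots Cfsg.Agent.Tits.Core
  Cfsg.Agent.Nodes.Reps
  Cfsg.Agent.Nodes.BNOf Cfsg.Agent.Nodes.StabComb
  Cfsg.Agent.Nodes.RGDLib Cfsg.Agent.Nodes.Bruhat Cfsg.Agent.Nodes.OppDec Cfsg.Agent.Nodes.LeviDec
  Cfsg.Agent.OddHalf.NI.Mult
  Cfsg.Agent.H162.GaussDec
open Cfsg.Agent.H130.War (PP SS)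

variable {I W Y : Type*} [Fintype I] [DecidableEq I] [Group W] [Group Y] {M : CoxeterMatrix I}
  {cs : CoxeterSystem M W} {A : I → I → ℤ} {h : IsCartan M A} {p : ℕ} {T : Subgroup Y} {n : I → Y}
  {X : (I → ℤ) → Subgroup Y}

/-- `s` represents `s_i` and lies in `X_{-i} X_i X_{-i}` -/
def IsMu (R : RGD cs h p T n X) (i : I) (s : Y) : Prop :=
  Rp cs R.nsys (cs.simple i) s ∧ ∃ v ∈ X (-sr i), ∃ u ∈ X (sr i), ∃ v' ∈ X (-sr i), s = v * u * v'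

section

variable (R : RGD cs h p T n X) {i : I}

include R

theorem Rp.inv' {s : Y} (hs : Rp cs R.nsys (cs.simple i) s) : Rp cs R.nsys (cs.simple i) s⁻¹ := by
  have := hs.inv
  rwa [inv_simple] at this

theorem conj_pos {s : Y} (hs : Rp cs R.nsys (cs.simple i) s) {u : Y} (hu : u ∈ X (sr i)) :
    s * u * s⁻¹ ∈ X (-sr i) := by
  have h1 := R.conj_mem hs (isRoot_sr cs h i) hu
  rwa [rep_simple_sr] at h1

theorem conj_neg {s : Y} (hs : Rp cs R.nsys (cs.simple i) s) {u : Y} (hu : u ∈ X (-sr i)) :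
    s * u * s⁻¹ ∈ X (sr i) := by
  have h1 := R.conj_mem hs (isRoot_sr cs h i).neg hu
  rwa [map_neg, rep_simple_sr, neg_neg] at h1

theorem conj_pos' {s : Y} (hs : Rp cs R.nsys (cs.simple i) s) {u : Y} (hu : u ∈ X (sr i)) :
    s⁻¹ * u * s ∈ X (-sr i) := by
  have h1 := conj_pos R (Rp.inv' R hs) hu
  rwa [inv_inv] at h1

theorem conj_neg' {s : Y} (hs : Rp cs R.nsys (cs.simple i) s) {u : Y} (hu : u ∈ X (-sr i)) :
    s⁻¹ * u * s ∈ X (sr i) := by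
  have h1 := conj_neg R (Rp.inv' R hs) hu
  rwa [inv_inv] at h1

theorem tor_mem {t : Y} (ht : t ∈ T) {x : I → ℤ} (hx : IsRoot cs h x) {u : Y} (hu : u ∈ X x) :
    t * u * t⁻¹ ∈ X x := by
  rw [← R.tor x hx t ht]
  exact conj_mem_cj.2 hu

theorem tor_mem' {t : Y} (ht : t ∈ T) {x : I → ℤ} (hx : IsRoot cs h x) {u : Y} (hu : u ∈ X x) :
    t⁻¹ * u * t ∈ X x := by
  have h1 := tor_mem R (inv_mem ht) hx hu
  rwa [inv_inv] at h1

theorem rp_mul_mem {s s' : Y} (hs : Rp cs R.nsys (cs.simple i) s) (hs' : Rp cs R.nsys (cs.simple i) s') :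
    s * s' ∈ T := by
  have h1 := (Rp.inv' R hs).unique hs'
  rwa [inv_inv] at h1

theorem IsMu.inv {s : Y} (hs : IsMu R i s) : IsMu R i s⁻¹ := by
  obtain ⟨h1, v, hv, u, hu, v', hv', rfl⟩ := hs
  exact ⟨Rp.inv' R h1, v'⁻¹, inv_mem hv', u⁻¹, inv_mem hu, v⁻¹, inv_mem hv, by group⟩

/-- every non-trivial element of `X_i` -/
theorem exists_mu {u : Y} (hu : u ∈ X (sr i)) (hu1 : u ≠ 1) :
    ∃ v ∈ X (-sr i), ∃ s, IsMu R i s ∧ ∃ v' ∈ X (-sr i), u = v * s * v' := by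
  have hn := rp_simple cs R.nsys i
  have h1 : (n i)⁻¹ * u * n i ∈ X (-sr i) := conj_pos' R hn hu
  obtain ⟨a, ha, t, ht, b, hb, e⟩ := R.rk1 i _ h1 (fun h0 => hu1 (by
    have : u = n i * ((n i)⁻¹ * u * n i) * (n i)⁻¹ := by group
    rw [this, h0]; group))
  have hs : Rp cs R.nsys (cs.simple i) (n i * t) := hn.mul_mem_right ht
  have e2 : u = (n i * a * (n i)⁻¹) * (n i * t) * (n i * b * (n i)⁻¹) := by
    have : u = n i * ((n i)⁻¹ * u * n i) * (n i)⁻¹ := by group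
    rw [this, e]; group
  have hv := conj_pos R hn ha
  have hv' := conj_pos R hn hb
  refine ⟨_, hv, n i * t, ⟨hs, _, inv_mem hv, u, hu, _, inv_mem hv', ?_⟩, _, hv', e2⟩
  rw [e2]
  group

/-- every non-trivial element of `X_{-i}` -/
theorem exists_mu_neg {v : Y} (hv : v ∈ X (-sr i)) (hv1 : v ≠ 1) :
    ∃ a ∈ X (sr i), ∃ s, IsMu R i s ∧ ∃ b ∈ X (sr i), v = a * s * b := by
  have hn := rp_simple cs R.nsys i
  have h1 : (n i)⁻¹ * v * n i ∈ X (sr i) := conj_neg' R hn hv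
  obtain ⟨w, hw, s, hs, w', hw', e⟩ := exists_mu R h1 (fun h0 => hv1 (by
    have : v = n i * ((n i)⁻¹ * v * n i) * (n i)⁻¹ := by group
    rw [this, h0]; group))
  have e2 : v = (n i * w * (n i)⁻¹) * (n i * s * (n i)⁻¹) * (n i * w' * (n i)⁻¹) := by
    have : v = n i * ((n i)⁻¹ * v * n i) * (n i)⁻¹ := by group
    rw [this, e]; group
  have hr : Rp cs R.nsys (cs.simple i) (n i * s * (n i)⁻¹) := by
    have := (hn.mul hs.1).mul (Rp.inv' R hn)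
    rwa [simple_mul_simple_self, one_mul] at this
  have ha := conj_neg R hn hw
  have hb := conj_neg R hn hw'
  refine ⟨_, ha, n i * s * (n i)⁻¹, ⟨hr, ?_⟩, _, hb, e2⟩
  -- `σ = a⁻¹ v b⁻¹`, conjugated by itself
  obtain ⟨σ, hσ⟩ : ∃ σ, σ = n i * s * (n i)⁻¹ := ⟨_, rfl⟩
  obtain ⟨a, ha'⟩ : ∃ a, a = n i * w * (n i)⁻¹ := ⟨_, rfl⟩
  obtain ⟨b, hb'⟩ : ∃ b, b = n i * w' * (n i)⁻¹ := ⟨_, rfl⟩
  rw [← hσ] at e2 hr
  rw [← ha'] at ha e2
  rw [← hb'] at hb e2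
  rw [← hσ]
  refine ⟨_, conj_pos R hr (inv_mem ha), _, conj_neg R hr hv, _, conj_pos R hr (inv_mem hb), ?_⟩
  rw [e2]
  group

theorem eq_one_of_mem_neg_B [Finite W] {v : Y} (hv : v ∈ X (-sr i)) (hB : v ∈ RGD.B cs h T X) : v = 1 :=
  eq_one_of_mem_UN_of_mem_B R (X_le_UN (isRoot_sr cs h i).neg (neg_nonpos.2 (sr_nonneg i)) hv) hB

theorem eq_of_double [Finite W] {s s' a b : Y} (hs : Rp cs R.nsys (cs.simple i) s)
    (hs' : Rp cs R.nsys (cs.simple i) s') (ha : a ∈ X (-sr i)) (hb : b ∈ X (-sr i)) (e : s = a * s' * b) :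
    s = s' := by
  have hB : ∀ u ∈ X (sr i), u ∈ RGD.B cs h T X := fun u hu =>
    RGD.X_le_B (isRoot_sr cs h i) (sr_nonneg i) hu
  have h1 : a⁻¹ = (s' * b * s'⁻¹) * (s' * s⁻¹) := by rw [e]; group
  have h2 : s' * s⁻¹ ∈ T := rp_mul_mem R hs' (Rp.inv' R hs)
  have h3 : a⁻¹ = 1 := eq_one_of_mem_neg_B R (inv_mem ha) (by
    rw [h1]
    exact mul_mem (hB _ (conj_neg R hs' hb)) (RGD.T_le_B h2))
  have ha1 : a = 1 := inv_eq_one.1 h3
  have h4 : b = s'⁻¹ * s := by rw [e, ha1]; group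
  have h5 : b ∈ T := by rw [h4]; exact rp_mul_mem R (Rp.inv' R hs') hs
  have h6 : b ∈ X (-sr i) ⊓ T := ⟨hb, h5⟩
  rw [X_inf_T R (isRoot_sr cs h i).neg, Subgroup.mem_bot] at h6
  rw [e, ha1, h6]
  group

theorem not_mem_B [Finite W] {s : Y} (hs : Rp cs R.nsys (cs.simple i) s) : s ∉ RGD.B cs h T X := by
  intro hB
  have h1 : cs.simple i = 1 := Cell.unique R (cell_of_rp hs) (cell_one_of_mem hB)
  have h2 := cs.length_simple i
  rw [h1, cs.length_one] at h2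
  omega

/-- **The rank one property.** -/
theorem R1_of_tern [Finite W] (htern : ∀ a b c, IsMu R i a → IsMu R i b → IsMu R i c → IsMu R i (a * b * c))
    {m : Y} (hm : IsMu R i m) : R1 T X i m := by
  have hB : ∀ u ∈ X (sr i), u ∈ RGD.B cs h T X := fun u hu =>
    RGD.X_le_B (isRoot_sr cs h i) (sr_nonneg i) hu
  -- the set `Q = U H ∪ U S U`, `H = S S`
  obtain ⟨H, hH⟩ : ∃ H : Set Y, H = {g | ∃ a b, IsMu R i a ∧ IsMu R i b ∧ g = a * b} := ⟨_, rfl⟩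
  have hHT : ∀ g ∈ H, g ∈ T := by
    intro g hg
    rw [hH] at hg
    obtain ⟨a, b, ha, hb, rfl⟩ := hg
    exact rp_mul_mem R ha.1 hb.1
  have hSS : ∀ a b, IsMu R i a → IsMu R i b → a * b ∈ H := fun a b ha hb => by
    rw [hH]; exact ⟨a, b, ha, hb, rfl⟩
  have hHS : ∀ g ∈ H, ∀ s, IsMu R i s → IsMu R i (g * s) := by
    intro g hg s hs
    rw [hH] at hg
    obtain ⟨a, b, ha, hb, rfl⟩ := hg
    exact htern a b s ha hb hs
  have hSH : ∀ g ∈ H, ∀ s, IsMu R i s → IsMu R i (s * g) := by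
    intro g hg s hs
    rw [hH] at hg
    obtain ⟨a, b, ha, hb, rfl⟩ := hg
    rw [← mul_assoc]
    exact htern s a b hs ha hb
  have hHH : ∀ g ∈ H, ∀ g' ∈ H, g * g' ∈ H := by
    intro g hg g' hg'
    rw [hH] at hg'
    obtain ⟨a, b, ha, hb, rfl⟩ := hg'
    rw [← mul_assoc]
    exact hSS _ _ (hHS g hg a ha) hb
  have h1H : (1 : Y) ∈ H := by
    rw [← mul_inv_cancel m]
    exact hSS _ _ hm (IsMu.inv R hm)
  obtain ⟨Q, hQ⟩ : ∃ Q : Set Y, Q = {g | (∃ x ∈ X (sr i), ∃ k ∈ H, g = x * k) ∨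
      ∃ x ∈ X (sr i), ∃ s, IsMu R i s ∧ ∃ y ∈ X (sr i), g = x * s * y} := ⟨_, rfl⟩
  have hU : ∀ u ∈ X (sr i), ∀ g ∈ Q, u * g ∈ Q := by
    intro u hu g hg
    rw [hQ] at hg ⊢
    rcases hg with ⟨x, hx, k, hk, rfl⟩ | ⟨x, hx, s, hs, y, hy, rfl⟩
    · exact Or.inl ⟨u * x, mul_mem hu hx, k, hk, by group⟩
    · exact Or.inr ⟨u * x, mul_mem hu hx, s, hs, y, hy, by group⟩
  have hS : ∀ s, IsMu R i s → ∀ g ∈ Q, s * g ∈ Q := by
    intro s hs g hg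
    rw [hQ] at hg
    rcases hg with ⟨x, hx, k, hk, rfl⟩ | ⟨x, hx, s₁, hs₁, y, hy, rfl⟩
    · by_cases hx1 : x = 1
      · rw [hQ]
        exact Or.inr ⟨1, one_mem _, s * k, hSH k hk s hs, 1, one_mem _, by rw [hx1]; group⟩
      obtain ⟨v, hv, s', hs', v', hv', e⟩ := exists_mu R hx hx1
      have hh := hSS s s' hs hs'
      by_cases hv1 : v' = 1
      · rw [hQ]
        exact Or.inl ⟨s * v * s⁻¹, conj_neg R hs.1 hv, s * s' * k, hHH _ hh _ hk, by rw [e, hv1]; group⟩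
      obtain ⟨a, ha, s'', hs'', b, hb, e'⟩ := exists_mu_neg R hv' hv1
      rw [hQ]
      refine Or.inr ⟨(s * v * s⁻¹) * ((s * s') * a * (s * s')⁻¹), mul_mem (conj_neg R hs.1 hv)
        (tor_mem R (hHT _ hh) (isRoot_sr cs h i) ha), (s * s') * (s'' * k), hHS _ hh _ (hSH _ hk _ hs''),
        k⁻¹ * b * k, tor_mem' R (hHT _ hk) (isRoot_sr cs h i) hb, ?_⟩
      rw [e, e']
      group
    · by_cases hx1 : x = 1
      · have hh := hSS s s₁ hs hs₁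
        rw [hQ]
        exact Or.inl ⟨(s * s₁) * y * (s * s₁)⁻¹, tor_mem R (hHT _ hh) (isRoot_sr cs h i) hy, s * s₁, hh, by
          rw [hx1]; group⟩
      obtain ⟨v, hv, s', hs', v', hv', e⟩ := exists_mu R hx hx1
      have hh := hSS s s' hs hs'
      rw [hQ]
      refine Or.inr ⟨s * v * s⁻¹, conj_neg R hs.1 hv, (s * s') * s₁, hHS _ hh _ hs₁,
        (s₁⁻¹ * v' * s₁) * y, mul_mem (conj_neg' R hs₁.1 hv') hy, ?_⟩
      rw [e]
      group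
  have hV : ∀ v ∈ X (-sr i), ∀ g ∈ Q, v * g ∈ Q := by
    intro v hv g hg
    have h1 := hS m hm _ (hU _ (conj_neg' R hm.1 hv) _ (hS _ (IsMu.inv R hm) g hg))
    have e : m * (m⁻¹ * v * m * (m⁻¹ * g)) = v * g := by group
    rwa [e] at h1
  have hKK : ∀ g ∈ KK X (sr i), g ∈ Q := by
    intro g hg
    have h1 : g ∈ Subgroup.closure ((X (sr i) : Set Y) ∪ (X (-sr i) : Set Y)) := by
      rw [← Subgroup.sup_eq_closure]
      exact hg
    have h1Q : (1 : Y) ∈ Q := by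
      rw [hQ]
      exact Or.inl ⟨1, one_mem _, 1, h1H, by group⟩
    refine Subgroup.closure_induction_left (p := fun x _ => x ∈ Q) h1Q ?_ ?_ h1
    · intro x hx y _ hy
      rcases hx with hx | hx
      · exact hU x hx y hy
      · exact hV x hx y hy
    · intro x hx y _ hy
      rcases hx with hx | hx
      · exact hU x⁻¹ (inv_mem hx) y hy
      · exact hV x⁻¹ (inv_mem hx) y hy
  have hTK : ∀ t ∈ T ⊓ KK X (sr i), t ∈ H := by
    intro t ht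
    have h1 := hKK t ht.2
    rw [hQ] at h1
    rcases h1 with ⟨x, hx, k, hk, e⟩ | ⟨x, hx, s, hs, y, hy, e⟩
    · have h2 : x ∈ X (sr i) ⊓ T := ⟨hx, by
        have : x = t * k⁻¹ := by rw [e]; group
        rw [this]
        exact T.mul_mem ht.1 (T.inv_mem (hHT k hk))⟩
      rw [X_inf_T R (isRoot_sr cs h i), Subgroup.mem_bot] at h2
      rw [e, h2, one_mul]
      exact hk
    · exfalso
      refine not_mem_B R hs.1 ?_
      have : s = x⁻¹ * t * y⁻¹ := by rw [e]; group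
      rw [this]
      exact mul_mem (mul_mem (inv_mem (hB x hx)) (RGD.T_le_B ht.1)) (inv_mem (hB y hy))
  intro y hy t ht
  obtain ⟨h1, v, hv, u, hu, v', hv', e⟩ := hHS t (hTK t ht) m⁻¹ (IsMu.inv R hm)
  refine ⟨u * (m * y * m⁻¹)⁻¹, mul_mem hu (inv_mem (conj_neg R hm.1 hy)), v⁻¹, inv_mem hv,
    m⁻¹ * v'⁻¹ * m, conj_neg' R hm.1 (inv_mem hv'), ?_⟩
  have e2 : u = v⁻¹ * (t * m⁻¹) * v'⁻¹ := by rw [e]; group
  rw [e2]
  group

/-- The rank one property from a parametrization. -/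
theorem R1_of_param [Finite W] {P : Type*} (ξ ν : P → Y) (hξ : ∀ u ∈ X (sr i), u ≠ 1 → ∃ q, u = ξ q)
    (hξm : ∀ q, ξ q ∈ X (sr i))
    (hν : ∀ q, ∃ b ∈ X (-sr i), ∃ c ∈ X (sr i), ν q = ξ q * b * c)
    (hνr : ∀ q, Rp cs R.nsys (cs.simple i) (ν q))
    (htern : ∀ a b c, ∃ d, ν a * ν b * ν c = ν d) (q : P) : R1 T X i (ν q) := by
  have hν' : ∀ q, ∃ v ∈ X (-sr i), ∃ v' ∈ X (-sr i), ν q = v * ξ q * v' := by
    intro q
    obtain ⟨b, hb, c, hc, e⟩ := hν q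
    refine ⟨_, conj_pos R (hνr q) hc, b, hb, ?_⟩
    have e1 : ξ q * b = ν q * c⁻¹ := by rw [e]; group
    rw [mul_assoc (ν q * c * (ν q)⁻¹), e1]
    group
  have hmu : ∀ q, IsMu R i (ν q) := by
    intro q
    obtain ⟨v, hv, v', hv', e⟩ := hν' q
    exact ⟨hνr q, v, hv, ξ q, hξm q, v', hv', e⟩
  have hall : ∀ s, IsMu R i s → ∃ q, s = ν q := by
    rintro s ⟨hs, v, hv, u, hu, v', hv', e⟩
    have hu1 : u ≠ 1 := by
      rintro rfl
      have h1 : s ∈ X (-sr i) := by rw [e, mul_one]; exact mul_mem hv hv'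
      have h2 := conj_neg R hs h1
      rw [mul_inv_cancel_right] at h2
      exact not_mem_B R hs (RGD.X_le_B (isRoot_sr cs h i) (sr_nonneg i) h2)
    obtain ⟨q, rfl⟩ := hξ u hu hu1
    obtain ⟨w, hw, w', hw', e'⟩ := hν' q
    refine ⟨q, eq_of_double R hs (hνr q) (mul_mem hv (inv_mem hw)) (mul_mem (inv_mem hw') hv') ?_⟩
    rw [e, e']
    group
  refine R1_of_tern R ?_ (hmu q)
  intro a b c ha hb hc
  obtain ⟨a, rfl⟩ := hall a ha
  obtain ⟨b, rfl⟩ := hall b hb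
  obtain ⟨c, rfl⟩ := hall c hc
  obtain ⟨d, hd⟩ := htern a b c
  rw [hd]
  exact hmu d

theorem rp_of_mul_mem {g : Y} (hg : g * (n i)⁻¹ ∈ T) : Rp cs R.nsys (cs.simple i) g := by
  have h2 := (rp_of_mem (cs := cs) (hN := R.nsys) hg).mul (rp_simple cs R.nsys i)
  rwa [one_mul, inv_mul_cancel_right] at h2

/-- **Two `p`-elements**, from the rank one property. -/
theorem pp_of_R1 [Finite W] [Nonempty I] [IsSimpleGroup Y] (hG : G1 cs h X = ⊤)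
    (hR1 : ∀ i, ∃ m, m * (n i)⁻¹ ∈ T ∧ R1 T X i m)
    (hconn : ∀ J : Set I, J.Nonempty → J ≠ Set.univ → ∃ a ∈ J, ∃ b, b ∉ J ∧ M a b ≠ 2) : PP p Y := by
  choose m hm0 hm1 using hR1
  have hm : ∀ i, Rp cs R.nsys (cs.simple i) (m i) := fun i => rp_of_mul_mem R (hm0 i)
  intro g
  by_cases hg : g = 1
  · exact ⟨1, 1, by rw [hg, mul_one], ⟨0, one_pow _⟩, ⟨0, one_pow _⟩⟩
  obtain ⟨x, v, hv, u, hu, e⟩ := gauss_aux R hG hconn hm hm1 (Cfsg.Agent.H928.War.Rgd.core_trivial R hg)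
  obtain ⟨a, ha⟩ := Cfsg.Agent.H928.War.Rgd.isPGroup_UN R ⟨v, hv⟩
  obtain ⟨b, hb⟩ := R.isPGroup_Upos ⟨u, hu⟩
  have ha' : v ^ p ^ a = 1 := congrArg Subtype.val ha
  have hb' : u ^ p ^ b = 1 := congrArg Subtype.val hb
  have hc : ∀ (z : Y) (m : ℕ), (x⁻¹ * z * x) ^ m = x⁻¹ * z ^ m * x := by
    intro z m
    have := conj_pow (a := x⁻¹) (b := z) (i := m)
    rwa [inv_inv] at this
  refine ⟨x⁻¹ * v * x, x⁻¹ * u * x, ?_, ⟨a, ?_⟩, ⟨b, ?_⟩⟩
  · calc g = x⁻¹ * (x * g * x⁻¹) * x := by group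
      _ = _ := by rw [e]; group
  · rw [hc, ha']; group
  · rw [hc, hb']; group

end

/-! ### Images -/

/-- The rank one property in a quotient of a subgroup. -/
theorem R1_map {Y' : Type*} [Group Y'] {G0 : Subgroup Y} (f : ↥G0 →* Y') (hk : ∀ z ∈ f.ker, (z : Y) ∈ T) {i : I}
    (hX : X (sr i) ≤ G0) (hX' : X (-sr i) ≤ G0) {m : Y} (hm : m ∈ G0) (h1 : R1 T X i m) :
    R1 ((T.subgroupOf G0).map f) (fun x => ((X x).subgroupOf G0).map f) i (f ⟨m, hm⟩) := by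
  rintro _ ⟨⟨y, hyG⟩, hy, rfl⟩ _ ⟨⟨⟨t, htG⟩, ht, rfl⟩, ht'⟩
  have hy' : y ∈ X (-sr i) := hy
  have htT : t ∈ T := ht
  obtain ⟨⟨k, hkG⟩, hkK, e⟩ : f ⟨t, htG⟩ ∈ ((KK X (sr i)).subgroupOf G0).map f := by
    unfold KK
    rw [Subgroup.subgroupOf_sup hX hX', Subgroup.map_sup]
    exact ht'
  have hkT : k ∈ T := by
    have h2 : (⟨k, hkG⟩ * ⟨t, htG⟩⁻¹ : ↥G0) ∈ f.ker := by
      rw [MonoidHom.mem_ker, map_mul, map_inv, e, mul_inv_cancel]
    have h3 : k * t⁻¹ ∈ T := hk _ h2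
    have h4 : k = k * t⁻¹ * t := by group
    rw [h4]
    exact mul_mem h3 htT
  obtain ⟨a, ha, y', hy'', x, hx, e2⟩ := h1 y hy' k ⟨hkT, hkK⟩
  refine ⟨f ⟨a, hX ha⟩, ⟨⟨a, hX ha⟩, ha, rfl⟩, f ⟨y', hX' hy''⟩, ⟨⟨y', hX' hy''⟩, hy'', rfl⟩, f ⟨x, hX hx⟩,
    ⟨⟨x, hX hx⟩, hx, rfl⟩, ?_⟩
  rw [← e, ← map_mul, ← map_mul, ← map_mul, ← map_mul]
  exact congrArg f (Subtype.ext e2)

end Cfsg.Agent.H256.War.RankOne
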