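import Mathlib
import Cfsg.Agent.Nodes.RGDClass
import Cfsg.Agent.H538.MFacts
import Cfsg.Agent.H256.War.RankOne

/-!
The rank one property of the nodes of a Witt frame (S2453, layer L9).

* `Tern Fr` : the ternary law of the admissible pairs;
* `node_C`, `node_D` : the rank one property at every node;
* `pp_C`, `pp_D` : two `p`-elements.
-/

set_option autoImplicit false
set_option linter.unusedSectionVars false

namespace Cfsg.Agent.H256.War.WittNode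

open Cfsg.Agent.ChevalleyStructure.CoxeterGeom Cfsg.Agent.Tits.Roots
open Cfsg.Agent.Nodes.Comb Cfsg.Agent.Nodes.Reps Cfsg.Agent.Nodes.BNOf
open Cfsg.Agent.Nodes.RGDLib Cfsg.Agent.Nodes.WittAll
open Cfsg.Agent.TitsThree Cfsg.Agent.TitsThree.Siegel Cfsg.Agent.TitsThree.WittFrame Cfsg.Agent.TitsThree.WittWeyl
  Cfsg.Agent.TitsThree.FrameCN
open Cfsg.Agent.H162.GaussDec Cfsg.Agent.H256.War.RankOne
open Cfsg.Agent.H130.War (PP)

variable {F : Type*} [Field F] {V : Type*} [AddCommGroup V] [Module F V] {H : HForm F V}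

section Gen

variable {n : ℕ} {Fr : Frame H (Fin n)}

/-- linear automorphisms agreeing on the frame and on `V0` are equal -/
theorem ext_frame (hV0 : ∀ v, (∀ x, H.h v (Fr.b x) = 0) → v ∈ Fr.V0) {g k : V ≃ₗ[F] V}
    (hb : ∀ x, g (Fr.b x) = k (Fr.b x)) (h0 : ∀ w ∈ Fr.V0, g w = k w) : g = k := by
  ext v
  obtain ⟨u, hu⟩ : ∃ u : V, u = ∑ x, (H.h v (Fr.b (neg x)) * (Fr.η (neg x))⁻¹) • Fr.b x := ⟨_, rfl⟩
  have h1 : v - u ∈ Fr.V0 := by
    apply hV0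
    intro y
    rw [H.sub_left, sub_eq_zero]
    have h2 : H.h u (Fr.b y) = ∑ x, (H.h v (Fr.b (neg x)) * (Fr.η (neg x))⁻¹) * H.h (Fr.b x) (Fr.b y) := by
      rw [hu]
      have : ∀ (s : Finset (Fin n × Bool)) (f : Fin n × Bool → F), H.h (∑ x ∈ s, f x • Fr.b x) (Fr.b y) =
          ∑ x ∈ s, f x * H.h (Fr.b x) (Fr.b y) := by
        intro s f
        induction s using Finset.induction_on with
        | empty => simp [H.zero_left]
        | insert a s ha ih => rw [Finset.sum_insert ha, Finset.sum_insert ha, H.add_left, H.smul_left, ih]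
      exact this _ _
    rw [h2, Finset.sum_eq_single (neg y)]
    · rw [WittFrame.neg_neg, Fr.hb_neg_self]
      have := Fr.η_ne y
      field_simp
    · intro x _ hx
      rw [Fr.hb_ne, mul_zero]
      rintro rfl
      exact hx (WittFrame.neg_neg x).symm
    · intro h; exact absurd (Finset.mem_univ _) h
  have h2 : g u = k u := by
    rw [hu, map_sum, map_sum]
    exact Finset.sum_congr rfl fun x _ => by rw [map_smul, map_smul, hb]
  have h3 : v = (v - u) + u := by abel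
  rw [h3, map_add, map_add, h0 _ h1, h2]

theorem fst_eq {x z : Fin n × Bool} (h : z.1 = x.1) : z = x ∨ z = neg x := by
  obtain ⟨z, s⟩ := z
  obtain ⟨x, t⟩ := x
  simp only at h
  subst h
  cases s <;> cases t <;> simp [neg]

/-- the ternary law of the Weyl elements of type I -/
theorem nX_tern (hV0 : ∀ v, (∀ x, H.h v (Fr.b x) = 0) → v ∈ Fr.V0) {x y : Fin n × Bool} (h : x.1 ≠ y.1) {a b c : F}
    (ha : a ≠ 0) (hb : b ≠ 0) (hc : c ≠ 0) :
    nX Fr x y a * nX Fr x y b * nX Fr x y c = nX Fr x y (-(a * b⁻¹ * c)) := by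
  have hd : -(a * b⁻¹ * c) ≠ 0 := neg_ne_zero.2 (mul_ne_zero (mul_ne_zero ha (inv_ne_zero hb)) hc)
  have hσa : H.σ a ≠ 0 := by simpa using ha
  have hσb : H.σ b ≠ 0 := by simpa using hb
  have hσc : H.σ c ≠ 0 := by simpa using hc
  have h3 := Fr.η_ne x
  have h4 := Fr.η_ne y
  have h5 := H.ε_ne
  refine ext_frame hV0 (fun z => ?_) (fun w hw => ?_)
  · rw [mul_apply', mul_apply']
    by_cases h1 : z.1 = x.1
    · rcases fst_eq h1 with rfl | rfl
      · rw [nX_apply_self Fr h hc, map_neg, map_smul, nX_apply_neg Fr h hb, map_neg, map_smul, map_smul,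
          nX_apply_self Fr h ha, nX_apply_self Fr h hd]
        match_scalars
        field_simp
      · rw [nX_apply_neg' Fr h hc, map_neg, map_smul, nX_apply_self' Fr h hb, map_neg, map_smul, map_smul,
          nX_apply_neg' Fr h ha, nX_apply_neg' Fr h hd]
        simp only [map_neg, map_mul, map_inv₀]
        match_scalars
        field_simp
    · by_cases h2 : z.1 = y.1
      · rcases fst_eq h2 with rfl | rfl
        · rw [nX_apply_self' Fr h hc, map_smul, nX_apply_neg' Fr h hb, map_smul, map_neg, map_smul,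
            nX_apply_self' Fr h ha, nX_apply_self' Fr h hd]
          simp only [map_neg, map_mul, map_inv₀]
          match_scalars
          field_simp
        · rw [nX_apply_neg Fr h hc, map_smul, nX_apply_self Fr h hb, map_smul, map_neg, map_smul,
            nX_apply_neg Fr h ha, nX_apply_neg Fr h hd]
          match_scalars
          field_simp
      · rw [nX_apply_of_ne Fr h h1 h2, nX_apply_of_ne Fr h h1 h2, nX_apply_of_ne Fr h h1 h2,
          nX_apply_of_ne Fr h h1 h2]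
  · rw [mul_apply', mul_apply', nX_apply_V0 Fr h hw, nX_apply_V0 Fr h hw, nX_apply_V0 Fr h hw,
      nX_apply_V0 Fr h hw]

/-- the action of `nZ x p` on `V0` -/
def rf (q : Fr.Adm) (v : V) : V := v + (H.ε⁻¹ * q.c⁻¹ * H.h v q.w) • q.w

variable (Fr) in
/-- the ternary law of the admissible pairs -/
def Tern : Prop :=
  ∀ q₁ q₂ q₃ : Fr.Adm, q₁.c ≠ 0 → q₂.c ≠ 0 → q₃.c ≠ 0 → ∃ q : Fr.Adm, q.c = H.ε * q₁.c * q₃.c * (H.σ q₂.c)⁻¹ ∧
    ∀ v ∈ Fr.V0, rf q₁ (rf q₂ (rf q₃ v)) = rf q v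

theorem rf_mem (q : Fr.Adm) {v : V} (hv : v ∈ Fr.V0) : rf q v ∈ Fr.V0 :=
  Submodule.add_mem _ hv (Submodule.smul_mem _ _ (Fr.ok_mem q.ok))

theorem nZ_apply_rf (x : Fin n × Bool) (q : Fr.Adm) (hc : q.c ≠ 0) {v : V} (hv : v ∈ Fr.V0) : nZ Fr x q v = rf q v :=
  nZ_apply_V0 Fr x q hc hv

/-- the ternary law of the Weyl elements of type II -/
theorem nZ_tern (hV0 : ∀ v, (∀ x, H.h v (Fr.b x) = 0) → v ∈ Fr.V0) (x : Fin n × Bool) {q₁ q₂ q₃ q : Fr.Adm}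
    (h₁ : q₁.c ≠ 0) (h₂ : q₂.c ≠ 0) (h₃ : q₃.c ≠ 0) (hc : q.c = H.ε * q₁.c * q₃.c * (H.σ q₂.c)⁻¹)
    (hr : ∀ v ∈ Fr.V0, rf q₁ (rf q₂ (rf q₃ v)) = rf q v) : nZ Fr x q₁ * nZ Fr x q₂ * nZ Fr x q₃ = nZ Fr x q := by
  have hσ₁ : H.σ q₁.c ≠ 0 := by simpa using h₁
  have hσ₂ : H.σ q₂.c ≠ 0 := by simpa using h₂
  have hσ₃ : H.σ q₃.c ≠ 0 := by simpa using h₃
  have h3 := Fr.η_ne x
  have h5 := H.ε_ne
  have hq : q.c ≠ 0 := by rw [hc]; exact mul_ne_zero (mul_ne_zero (mul_ne_zero h5 h₁) h₃) (inv_ne_zero hσ₂)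
  refine ext_frame hV0 (fun z => ?_) (fun w hw => ?_)
  · rw [mul_apply', mul_apply']
    by_cases h1 : z.1 = x.1
    · rcases fst_eq h1 with rfl | rfl
      · rw [nZ_apply_self Fr z q₃ h₃, map_smul, nZ_apply_neg Fr z q₂ h₂, map_smul, map_smul,
          nZ_apply_self Fr z q₁ h₁, nZ_apply_self Fr z q hq, hc]
        simp only [map_mul, map_inv₀, H.σσ, H.σε]
        match_scalars
        field_simp
      · rw [nZ_apply_neg Fr x q₃ h₃, map_smul, nZ_apply_self Fr x q₂ h₂, map_smul, map_smul,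
          nZ_apply_neg Fr x q₁ h₁, nZ_apply_neg Fr x q hq, hc]
        match_scalars
        field_simp
    · rw [nZ_apply_of_ne Fr h1, nZ_apply_of_ne Fr h1, nZ_apply_of_ne Fr h1, nZ_apply_of_ne Fr h1]
  · rw [mul_apply', mul_apply', nZ_apply_rf x q₃ h₃ hw, nZ_apply_rf x q₂ h₂ (rf_mem _ hw),
      nZ_apply_rf x q₁ h₁ (rf_mem _ (rf_mem _ hw)), nZ_apply_rf x q hq hw]
    exact hr w hw

end Gen

/-! ### Type `C_n` -/

section TypeC

open Cfsg.Agent.Nodes.TypeC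
open Cfsg.Agent.Nodes.WittRoot
open Cfsg.Agent.Nodes.WittRGD (Tor nn mono_nX mono_nZ mono_nn)
open Cfsg.Agent.Nodes

variable {n : ℕ} {Fr : Frame H (Fin n)} {G0 : Subgroup (V ≃ₗ[F] V)} {p : ℕ} (hA : AmbT Fr p G0)

include hA

theorem node_C (hT : Tern Fr) [Finite V] [Fact p.Prime] [CharP F p] {p0 : Fr.Adm} (hp0 : p0.c ≠ 0)
    {W : Type*} [Group W] (cs : CoxeterSystem (CoxeterMatrix.B n) W) (i : Fin n) :
    ∃ m, m ∈ G0 ∧ m * (nn Fr p0 i)⁻¹ ∈ Tor Fr G0 ∧ R1 (Tor Fr G0) (WittRoot.rg Fr) i m := by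
  have : Finite (V ≃ₗ[F] V) := Finite.of_injective (fun g : V ≃ₗ[F] V => (g : V → V)) DFunLike.coe_injective
  have : Finite W := finite_W cs
  have R := rgdC hA hp0 cs
  have hsr := WittRGD.rg_sr (Fr := Fr) i
  have hnsr := WittRGD.rg_neg_sr (Fr := Fr) i
  by_cases hi : (i : ℕ) + 1 < n
  · have hnx : nx i = (⟨i + 1, hi⟩, false) := by unfold nx; rw [dif_pos hi]
    have hne' : ((i, true) : Fin n × Bool).1 ≠ (nx i).1 := by rw [hnx]; simp [Fin.ext_iff]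
    rw [PG_ne Fr hne'] at hsr
    rw [PG_ne Fr (a := ng (i, true)) (b := ng (nx i)) hne',
      XG_swap Fr (a := ng (i, true)) (b := ng (nx i)) hne'] at hnsr
    have hT : ∀ t : F, t ≠ 0 → nX Fr (i, true) (nx i) t * (nn Fr p0 i)⁻¹ ∈ Tor Fr G0 := fun t ht =>
      tor_of_mono (nX_mem hA _ _ _) (nn_mem hA _ _) (mono_nX hi ht) (mono_nn hp0 i)
    refine ⟨nX Fr (i, true) (nx i) 1, nX_mem hA _ _ _, hT 1 one_ne_zero, ?_⟩
    refine R1_of_param R (P := {t : F // t ≠ 0}) (fun t => Fr.X (i, true) (nx i) t) (fun t => nX Fr (i, true) (nx i) t)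
      ?_ ?_ ?_ ?_ ?_ ⟨1, one_ne_zero⟩
    · intro u hu hu1
      rw [hsr] at hu
      obtain ⟨t, rfl⟩ := hu
      exact ⟨⟨t, by rintro rfl; exact hu1 (Fr.X_zero _ _)⟩, rfl⟩
    · intro q
      rw [hsr]
      exact ⟨q, rfl⟩
    · intro q
      rw [hsr, hnsr]
      exact ⟨_, ⟨-(q : F)⁻¹, rfl⟩, _, ⟨(q : F), rfl⟩, rfl⟩
    · exact fun q => rp_of_mul_mem R (hT q q.2)
    · rintro ⟨a, ha⟩ ⟨b, hb⟩ ⟨c, hc⟩
      exact ⟨⟨_, neg_ne_zero.2 (mul_ne_zero (mul_ne_zero ha (inv_ne_zero hb)) hc)⟩, nX_tern hA.V0 hne' ha hb hc⟩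
  · have hnx : nx i = (i, true) := by unfold nx; rw [dif_neg hi]
    rw [hnx, PG_self] at hsr hnsr
    have hT' : ∀ q : Fr.Adm, q.c ≠ 0 → nZ Fr (i, true) q * (nn Fr p0 i)⁻¹ ∈ Tor Fr G0 := fun q hq =>
      tor_of_mono (nZ_mem hA _ _) (nn_mem hA _ _) (mono_nZ hi hq) (mono_nn hp0 i)
    refine ⟨nZ Fr (i, true) p0, nZ_mem hA _ _, hT' p0 hp0, ?_⟩
    refine R1_of_param R (P := {q : Fr.Adm // q.c ≠ 0}) (fun q => Fr.Z (i, true) q) (fun q => nZ Fr (i, true) q)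
      ?_ ?_ ?_ ?_ ?_ ⟨p0, hp0⟩
    · intro u hu hu1
      rw [hsr] at hu
      obtain ⟨q, rfl⟩ := hu
      refine ⟨⟨q, fun h0 => hu1 ?_⟩, rfl⟩
      have hw : q.w = 0 := hA.ok_aniso _ (by have := q.ok; rwa [h0] at this)
      have : q = 1 := by ext <;> simp [hw, h0]
      rw [this, Fr.Z_one]
    · intro q
      rw [hsr]
      exact ⟨q.1, rfl⟩
    · intro q
      rw [hsr, hnsr]
      exact ⟨_, ⟨Frame.Adm.smul (-(Fr.η (i, true) * (H.σ q.1.c)⁻¹)) q.1, rfl⟩, _,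
        ⟨Frame.Adm.smul (H.ε * q.1.c * (H.σ q.1.c)⁻¹) q.1, rfl⟩, rfl⟩
    · exact fun q => rp_of_mul_mem R (hT' q.1 q.2)
    · rintro ⟨q₁, h₁⟩ ⟨q₂, h₂⟩ ⟨q₃, h₃⟩
      obtain ⟨q, hq, hr⟩ := hT q₁ q₂ q₃ h₁ h₂ h₃
      refine ⟨⟨q, ?_⟩, nZ_tern hA.V0 (i, true) h₁ h₂ h₃ hq hr⟩
      rw [hq]
      exact mul_ne_zero (mul_ne_zero (mul_ne_zero H.ε_ne h₁) h₃) (inv_ne_zero (by simpa using h₂))

omit hA

variable {K : Type*} [Group K] (M : Model Fr K)

theorem ker_le_Tor (z : ↥M.I) (hz : z ∈ M.φ.ker) : (z : V ≃ₗ[F] V) ∈ Tor Fr M.I := by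
  refine ⟨z.2, fun x => ?_⟩
  obtain ⟨a, ha⟩ := M.ker (Fr.b x) z hz
  refine ⟨a, ?_, ha⟩
  rintro rfl
  have h1 : z.1 (Fr.b x) = 0 := by rw [ha, zero_smul]
  exact WittRGD.b_ne_zero x (z.1.map_eq_zero_iff.1 h1)

/-- **Two `p`-elements in a group modelled on a Witt frame.** -/
theorem pp_C (hA : AmbT Fr p M.I) (hT : Tern Fr) [Finite V] [Fact p.Prime] [CharP F p] {p0 : Fr.Adm} (hp0 : p0.c ≠ 0)
    (hn : 0 < n) [IsSimpleGroup K] : PP p K := by
  have : Nonempty (Fin n) := ⟨⟨0, hn⟩⟩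
  have hW : Finite (CoxeterMatrix.B n).Group := finite_W (CoxeterMatrix.B n).toCoxeterSystem
  have R := rgdC_model M hA hp0 (CoxeterMatrix.B n).toCoxeterSystem
  refine pp_of_R1 R (WittModel.G1_eq_top _ hn _) (fun i => ?_) (H538.MFacts.irr_B n)
  obtain ⟨m, hm, hmT, h1⟩ := node_C hA hT hp0 (CoxeterMatrix.B n).toCoxeterSystem i
  refine ⟨M.φ ⟨m, hm⟩, ?_, R1_map M.φ (ker_le_Tor M) (hA.rg_le _) (hA.rg_le _) hm h1⟩
  rw [← map_inv, ← map_mul]
  exact Subgroup.mem_map_of_mem _ hmT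

end TypeC

end Cfsg.Agent.H256.War.WittNode
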