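import Mathlib
import Cfsg.Agent.H256.War.WittNode

/-!
The ternary law of the Witt frames of the classical groups, `PP p S` for these groups (S2453, layer L9).

* `pp_PSp`, `pp_PSU`, `pp_POmegaOdd`, `pp_POmegaMinus`, `pp_POmegaPlus`, `pp_PSL`.
-/

set_option autoImplicit false
set_option linter.unusedSectionVars false

namespace Cfsg.Agent.H256.War.WittNode

open Cfsg
open Cfsg.Agent.ChevalleyStructure.CoxeterGeom Cfsg.Agent.Tits.Roots
open Cfsg.Agent.Nodes.Comb Cfsg.Agent.Nodes.Reps Cfsg.Agent.Nodes.BNOf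
open Cfsg.Agent.Nodes.RGDLib Cfsg.Agent.Nodes.WittAll Cfsg.Agent.Nodes.WittU Cfsg.Agent.Nodes.WittInst
open Cfsg.Agent.TitsThree Cfsg.Agent.TitsThree.Siegel Cfsg.Agent.TitsThree.SiegelGen
  Cfsg.Agent.TitsThree.WittFrame Cfsg.Agent.TitsThree.WBridge Cfsg.Agent.TitsThree.WittWeyl
  Cfsg.Agent.TitsThree.FrameCN
open Cfsg.Agent.H162.GaussDec Cfsg.Agent.H256.War.RankOne
open Cfsg.Agent.H130.War (PP)

section Gen

variable {F : Type*} [Field F] {V : Type*} [AddCommGroup V] [Module F V] {H : HForm F V}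
variable {n : ℕ} {Fr : Frame H (Fin n)}

/-- the action on a line -/
theorem rf_line {d : V} (hd : ∀ w ∈ Fr.V0, ∃ x : F, w = x • d) {q : Fr.Adm} (hq : q.c ≠ 0) {v : V} (hv : v ∈ Fr.V0) :
    rf q v = (-(H.ε⁻¹ * q.c⁻¹ * H.σ q.c)) • v := by
  obtain ⟨x, hx⟩ := hd _ (Fr.ok_mem q.ok)
  obtain ⟨y, rfl⟩ := hd v hv
  have h5 := H.ε_ne
  have hh : H.h q.w q.w = -(H.ε * q.c + H.σ q.c) := by rw [q.herm, _root_.neg_neg]
  have h1 : H.h (y • d) q.w • q.w = H.h q.w q.w • (y • d) := by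
    rw [hx, H.smul_left, H.smul_right, H.smul_left, H.smul_right, smul_smul, smul_smul]
    congr 1
    ring
  rw [rf, mul_smul, h1, hh, smul_smul, smul_smul, smul_smul, ← add_smul]
  congr 1
  field_simp
  ring

/-- the ternary law on a line -/
theorem tern_of_line {d : V} (hd : ∀ w ∈ Fr.V0, ∃ x : F, w = x • d)
    (hE : ∀ q₁ q₂ q₃ : Fr.Adm, q₁.c ≠ 0 → q₂.c ≠ 0 → q₃.c ≠ 0 → ∃ q : Fr.Adm,
      q.c = H.ε * q₁.c * q₃.c * (H.σ q₂.c)⁻¹) : Tern Fr := by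
  intro q₁ q₂ q₃ h₁ h₂ h₃
  obtain ⟨q, hq⟩ := hE q₁ q₂ q₃ h₁ h₂ h₃
  have hσ₁ : H.σ q₁.c ≠ 0 := by simpa using h₁
  have hσ₂ : H.σ q₂.c ≠ 0 := by simpa using h₂
  have hσ₃ : H.σ q₃.c ≠ 0 := by simpa using h₃
  have h5 := H.ε_ne
  have hqc : q.c ≠ 0 := by rw [hq]; exact mul_ne_zero (mul_ne_zero (mul_ne_zero h5 h₁) h₃) (inv_ne_zero hσ₂)
  refine ⟨q, hq, fun v hv => ?_⟩
  rw [rf_line hd h₃ hv, rf_line hd h₂ (Submodule.smul_mem _ _ hv),
    rf_line hd h₁ (Submodule.smul_mem _ _ (Submodule.smul_mem _ _ hv)), rf_line hd hqc hv, hq]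
  simp only [map_mul, map_inv₀, H.σσ, H.σε]
  rw [smul_smul, smul_smul]
  congr 1
  field_simp

end Gen

/-! ### Symplectic groups -/

theorem tern_Sp {F : Type*} [Field F] (m : ℕ) : Tern (SpIdent.frame m F) := by
  refine tern_of_line (d := 0) (fun w hw => ⟨0, ?_⟩) (fun q₁ q₂ q₃ _ _ _ => ?_)
  · rw [smul_zero]
    exact (Submodule.mem_bot F).1 hw
  · exact ⟨SpIdent.adm _, rfl⟩

/-- **`PSp_{2m}(F)`.** -/
theorem pp_PSp' {F : Type*} [Field F] [Finite F] {m : ℕ} (hm : 1 ≤ m) {p : ℕ} [Fact p.Prime] [CharP F p]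
    [IsSimpleGroup (PSp m F)] : PP p (PSp m F) :=
  pp_C (KInstSp.model m F) (AmbT.of_amb amb_Sp p) (tern_Sp m) (p0 := SpIdent.adm 1) one_ne_zero hm

/-! ### Unitary groups -/

section Unitary

open Cfsg.Agent.LieClassical.HermBasic Cfsg.Agent.LieClassical.HermGen Cfsg.Agent.TitsThree.KSideU

variable {F : Type*} [Field F] [Fintype F] {q N : ℕ} (hF : Fintype.card F = q ^ 2) {m : ℕ}

theorem exists_wframe_tern (hN : N = 2 * m ∨ N = 2 * m + 1) : ∃ W : WFrame (PU hF N) m, Tern (toFrame W) := by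
  rcases hN with hN | hN
  · obtain ⟨W, hW⟩ := exists_wframe_even hF hN
    refine ⟨W, tern_of_line (d := 0) (fun w hw => ⟨0, ?_⟩) (fun q₁ q₂ q₃ h₁ h₂ h₃ => ?_)⟩
    · have h1 : w ∈ W.V0 := hw
      rw [hW] at h1
      rw [smul_zero]
      exact (Submodule.mem_bot F).1 h1
    · have key : ∀ r : (toFrame W).Adm, r.c + r.c ^ q = 0 := by
        intro r
        have h1 : r.w ∈ W.V0 := r.ok.1
        rw [hW] at h1
        have h2 : r.c + r.c ^ q = -hermForm N F q r.w r.w := r.ok.2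
        rw [(Submodule.mem_bot F).1 h1, herm_zero_left, neg_zero] at h2
        exact h2
      have hc : ∀ r : (toFrame W).Adm, r.c ^ q = -r.c := fun r => by
        linear_combination key r
      refine ⟨⟨0, (HU hF N).ε * q₁.c * q₃.c * ((HU hF N).σ q₂.c)⁻¹, W.V0.zero_mem, ?_⟩, rfl⟩
      rw [ok_iff, HU_ε, HU_σ, one_mul, herm_zero_left, hc q₂, mul_pow, mul_pow, inv_pow, neg_pow_q hF, hc q₁,
        hc q₂, hc q₃]
      field_simp
      ring
  · obtain ⟨W, d, hdd, hW⟩ := exists_wframe_odd hF hN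
    refine ⟨W, tern_of_line (d := d) (fun w hw => ?_) (fun q₁ q₂ q₃ h₁ h₂ h₃ => ?_)⟩
    · have h1 : w ∈ W.V0 := hw
      rw [hW] at h1
      obtain ⟨a, rfl⟩ := Submodule.mem_span_singleton.1 h1
      exact ⟨a, rfl⟩
    · obtain ⟨c, hc⟩ : ∃ c, c = (HU hF N).ε * q₁.c * q₃.c * ((HU hF N).σ q₂.c)⁻¹ := ⟨_, rfl⟩
      obtain ⟨x, hx⟩ := exists_norm_eq hF (c := -(c + c ^ q)) (by
        rw [neg_pow_q hF, add_pow_q hF, pow_q_pow_q hF]
        ring)
      refine ⟨⟨x • d, c, ?_, ?_⟩, hc⟩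
      · rw [hW]
        exact Submodule.smul_mem _ _ (Submodule.mem_span_singleton_self d)
      · rw [ok_iff, herm_smul_left, herm_smul_right, hdd, mul_one, hx]
        ring

/-- **`PSU_N(F)`.** -/
theorem pp_PSU' (hF : Fintype.card F = q ^ 2) (hN : 3 ≤ N) {p : ℕ} [Fact p.Prime] [CharP F p]
    [IsSimpleGroup (PSU N F q)] : PP p (PSU N F q) := by
  obtain ⟨m, hm⟩ : ∃ m, N = 2 * m ∨ N = 2 * m + 1 := ⟨N / 2, by omega⟩
  obtain ⟨W, hT⟩ := exists_wframe_tern hF hm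
  obtain ⟨p0, hp0, -⟩ := exists_adm hF W
  exact pp_C (KInstU.model hF hN W) (AmbT.of_amb (amb_U hF W) p) hT hp0 (by omega)

end Unitary

/-! ### Orthogonal groups of odd dimension -/

section Orthogonal

open QuadraticMap
open Cfsg.Agent.LieClassical Cfsg.Agent.LieClassical.OrthCore Cfsg.Agent.LieClassical.OrthTrans
open Cfsg.Agent.LieClassical.OrthSimple Cfsg.Agent.LieClassical.OrthFinite
open Cfsg.Agent.LieClassical.OrthForms
open Cfsg.Agent.TitsThree.KSideO Cfsg.Agent.TitsThree.StdData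

variable {F : Type*} [Field F] {m : ℕ}

theorem tern_odd (m : ℕ) (F : Type*) [Field F] : Tern (toFrame (wodd m F)) := by
  have hform : ∀ w : (Unit ⊕ (Fin m ⊕ Fin m)) → F, (∀ j, w (Sum.inr j) = 0) → oddForm m F w = w (Sum.inl ()) ^ 2 := by
    intro w hw
    rw [coe_oddForm, quadFormOdd_apply]
    simp [hw]
  refine tern_of_line (d := Pi.single (Sum.inl ()) 1) (fun w hw => ⟨w (Sum.inl ()), ?_⟩)
    (fun q₁ q₂ q₃ h₁ h₂ h₃ => ?_)
  · have hw' : ∀ j, w (Sum.inr j) = 0 := hw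
    funext j
    rcases j with j | j
    · simp
    · simp [hw']
  · have key : ∀ r : (toFrame (wodd m F)).Adm, r.c = -r.w (Sum.inl ()) ^ 2 := by
      intro r
      have h2 : r.c = -(oddForm m F) r.w := r.ok.2
      rw [h2, hform _ r.ok.1]
    have h2' : q₂.w (Sum.inl ()) ≠ 0 := by
      intro h0
      apply h₂
      rw [key, h0]
      ring
    refine ⟨⟨Pi.single (Sum.inl ()) (q₁.w (Sum.inl ()) * q₃.w (Sum.inl ()) / q₂.w (Sum.inl ())),
      -(q₁.w (Sum.inl ()) * q₃.w (Sum.inl ()) / q₂.w (Sum.inl ())) ^ 2, fun j => by simp, ?_⟩, ?_⟩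
    · show _ = -(oddForm m F) _
      rw [hform _ (fun j => by simp)]
      simp
    · show -(q₁.w (Sum.inl ()) * q₃.w (Sum.inl ()) / q₂.w (Sum.inl ())) ^ 2 = 1 * q₁.c * q₃.c * (q₂.c)⁻¹
      rw [key q₁, key q₂, key q₃]
      field_simp

/-- **`PΩ_{2m+1}(F)`, `F` of odd characteristic.** -/
theorem pp_PO_odd' [Finite F] (h2 : (2 : F) ≠ 0) (hm : 2 ≤ m) {p : ℕ} [Fact p.Prime] [CharP F p]
    [hs : IsSimpleGroup (Cfsg.POmega F (Cfsg.quadFormOdd m F))] : PP p (Cfsg.POmega F (Cfsg.quadFormOdd m F)) := by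
  revert hs
  rw [← coe_oddForm]
  intro hs
  have hG : Good (oddForm m F) := by
    apply good_of_finite (nondeg_oddForm m F h2)
    rw [Module.finrank_fintype_fun_eq_card, Fintype.card_sum, Fintype.card_sum, Fintype.card_fin,
      Fintype.card_unit]
    omega
  have hp : ((embOdd m F).ngt ⟨1, -1 ^ 2, rfl⟩).c ≠ 0 := by
    change (1 : F)⁻¹ * (-1 ^ 2) ≠ 0
    simp
  exact pp_C (model (wodd m F) hG ⟨_, hp⟩) (AmbT.of_amb (amb_O_of_two _ h2) p) (tern_odd m F) hp (by omega)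

/-! ### Minus type -/

section Minus

variable (a b : F)

/-- the coordinates of the anisotropic part -/
def toQ (v : (Fin m ⊕ Fin m) ⊕ Fin 2 → F) : QuadraticAlgebra F (-b) a := ⟨v (Sum.inr 0), v (Sum.inr 1)⟩

theorem star_smul' (r : F) (z : QuadraticAlgebra F (-b) a) : star (r • z) = r • star z := by
  ext
  · simp
    ring
  · simp

theorem norm_smul' (r : F) (z : QuadraticAlgebra F (-b) a) : (r • z).norm = r ^ 2 * z.norm := by
  rw [QuadraticAlgebra.norm_def, QuadraticAlgebra.norm_def]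
  simp
  ring

variable (hab : ∀ z₁ z₂ : F, z₁ ^ 2 + a * z₁ * z₂ + b * z₂ ^ 2 = 0 → z₁ = 0 ∧ z₂ = 0)

theorem form_eq {w : (Fin m ⊕ Fin m) ⊕ Fin 2 → F} (hw : ∀ j, w (Sum.inl j) = 0) :
    minusForm m F a b w = (toQ (m := m) a b w).norm := by
  rw [coe_minusForm, quadFormMinus_apply, QuadraticAlgebra.norm_def]
  simp only [hw, mul_zero, Finset.sum_const_zero, zero_add, toQ]
  ring

theorem c_eq (q : (toFrame (wminus m F a b hab)).Adm) : q.c = -(toQ (m := m) a b q.w).norm := by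
  have h2 : q.c = -(minusForm m F a b) q.w := q.ok.2
  rw [h2, form_eq a b q.ok.1]

theorem toQ_rf (q : (toFrame (wminus m F a b hab)).Adm) (hq : q.c ≠ 0) {v : (Fin m ⊕ Fin m) ⊕ Fin 2 → F}
    (hv : ∀ j, v (Sum.inl j) = 0) :
    toQ (m := m) a b (rf q v) = -(((toQ (m := m) a b q.w).norm)⁻¹ •
      (toQ (m := m) a b q.w * toQ (m := m) a b q.w * star (toQ (m := m) a b v))) := by
  have hc := c_eq a b hab q
  have hN : (toQ (m := m) a b q.w).norm ≠ 0 := by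
    intro h0
    rw [hc, h0, neg_zero] at hq
    exact hq rfl
  have hN' : (toQ (m := m) a b q.w).norm = q.w (Sum.inr 0) ^ 2 + a * q.w (Sum.inr 0) * q.w (Sum.inr 1) +
      b * q.w (Sum.inr 1) ^ 2 := by
    rw [QuadraticAlgebra.norm_def]
    simp only [toQ]
    ring
  have hpol : (HO (minusForm m F a b)).h v q.w = 2 * v (.inr 0) * q.w (.inr 0) +
      a * (v (.inr 0) * q.w (.inr 1) + v (.inr 1) * q.w (.inr 0)) + 2 * b * v (.inr 1) * q.w (.inr 1) := by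
    rw [HO_h, polar_minusForm]
    simp only [hv, zero_mul, mul_zero, add_zero, Finset.sum_const_zero, zero_add]
  have hrf : rf q v = v + ((1 : F)⁻¹ * q.c⁻¹ * (HO (minusForm m F a b)).h v q.w) • q.w := rfl
  obtain ⟨k, hk⟩ : ∃ k, k = ((toQ (m := m) a b q.w).norm)⁻¹ := ⟨_, rfl⟩
  have hk1 : (q.w (Sum.inr 0) ^ 2 + a * q.w (Sum.inr 0) * q.w (Sum.inr 1) + b * q.w (Sum.inr 1) ^ 2) * k = 1 := by
    rw [hk, ← hN']
    exact mul_inv_cancel₀ hN
  rw [hrf, hc, hpol, inv_neg, ← hk]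
  ext
  · simp [toQ]
    linear_combination (-v (Sum.inr 0)) * hk1
  · simp [toQ]
    linear_combination (-v (Sum.inr 1)) * hk1

theorem tern_minus (m : ℕ) (a b : F)
    (hab : ∀ z₁ z₂ : F, z₁ ^ 2 + a * z₁ * z₂ + b * z₂ ^ 2 = 0 → z₁ = 0 ∧ z₂ = 0) :
    Tern (toFrame (wminus m F a b hab)) := by
  intro q₁ q₂ q₃ h₁ h₂ h₃
  obtain ⟨w₁, hw₁⟩ : ∃ w, w = toQ (m := m) a b q₁.w := ⟨_, rfl⟩
  obtain ⟨w₂, hw₂⟩ : ∃ w, w = toQ (m := m) a b q₂.w := ⟨_, rfl⟩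
  obtain ⟨w₃, hw₃⟩ : ∃ w, w = toQ (m := m) a b q₃.w := ⟨_, rfl⟩
  have hc₁ : q₁.c = -w₁.norm := by rw [hw₁]; exact c_eq a b hab q₁
  have hc₂ : q₂.c = -w₂.norm := by rw [hw₂]; exact c_eq a b hab q₂
  have hc₃ : q₃.c = -w₃.norm := by rw [hw₃]; exact c_eq a b hab q₃
  have hN₁ : w₁.norm ≠ 0 := fun h => h₁ (by rw [hc₁, h, neg_zero])
  have hN₂ : w₂.norm ≠ 0 := fun h => h₂ (by rw [hc₂, h, neg_zero])
  have hN₃ : w₃.norm ≠ 0 := fun h => h₃ (by rw [hc₃, h, neg_zero])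
  obtain ⟨z, hz⟩ : ∃ z : QuadraticAlgebra F (-b) a, z = (w₂.norm)⁻¹ • (w₁ * star w₂ * w₃) := ⟨_, rfl⟩
  have hzN : z.norm = w₁.norm * w₃.norm * (w₂.norm)⁻¹ := by
    rw [hz, norm_smul', map_mul, map_mul, QuadraticAlgebra.norm_star]
    field_simp
  obtain ⟨w, hw⟩ : ∃ w : (Fin m ⊕ Fin m) ⊕ Fin 2 → F, w = Sum.elim (fun _ => 0) ![z.re, z.im] := ⟨_, rfl⟩
  have hwl : ∀ j, w (Sum.inl j) = 0 := fun j => by rw [hw]; rfl
  have hwz : toQ (m := m) a b w = z := by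
    rw [hw]
    ext <;> rfl
  obtain ⟨q, hqw, hqc⟩ : ∃ q : (toFrame (wminus m F a b hab)).Adm, q.w = w ∧ q.c = -z.norm :=
    ⟨⟨w, -z.norm, hwl, by rw [← hwz, ← form_eq a b hwl]; rfl⟩, rfl, rfl⟩
  have hqz : toQ (m := m) a b q.w = z := by rw [hqw, hwz]
  have hq0 : q.c ≠ 0 := by
    rw [hqc, hzN]
    exact neg_ne_zero.2 (mul_ne_zero (mul_ne_zero hN₁ hN₃) (inv_ne_zero hN₂))
  refine ⟨q, ?_, fun v hv => ?_⟩
  · show q.c = 1 * q₁.c * q₃.c * (q₂.c)⁻¹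
    rw [hqc, hzN, hc₁, hc₂, hc₃]
    field_simp
  · have hv0 : ∀ j, v (Sum.inl j) = 0 := hv
    have m3 : ∀ j, rf q₃ v (Sum.inl j) = 0 := rf_mem q₃ hv
    have m2 : ∀ j, rf q₂ (rf q₃ v) (Sum.inl j) = 0 := rf_mem q₂ (rf_mem q₃ hv)
    have m1 : ∀ j, rf q₁ (rf q₂ (rf q₃ v)) (Sum.inl j) = 0 := rf_mem q₁ (rf_mem q₂ (rf_mem q₃ hv))
    have m0 : ∀ j, rf q v (Sum.inl j) = 0 := rf_mem q hv
    have key : toQ (m := m) a b (rf q₁ (rf q₂ (rf q₃ v))) = toQ (m := m) a b (rf q v) := by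
      rw [toQ_rf a b hab q₁ h₁ m2, toQ_rf a b hab q₂ h₂ m3, toQ_rf a b hab q₃ h₃ hv0, toQ_rf a b hab q hq0 hv0,
        hqz, hzN, ← hw₁, ← hw₂, ← hw₃, hz]
      simp only [star_neg, star_smul', star_mul', star_star, smul_mul_assoc, mul_smul_comm, smul_smul, mul_neg,
        smul_neg, _root_.neg_neg]
      have e1 : w₁ * w₁ * (star w₂ * star w₂ * (w₃ * w₃ * star (toQ (m := m) a b v))) =
          w₁ * star w₂ * w₃ * (w₁ * star w₂ * w₃) * star (toQ (m := m) a b v) := by ring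
      have e2 : (w₁.norm)⁻¹ * ((w₂.norm)⁻¹ * (w₃.norm)⁻¹) =
          (w₁.norm * w₃.norm * (w₂.norm)⁻¹)⁻¹ * ((w₂.norm)⁻¹ * (w₂.norm)⁻¹) := by field_simp
      rw [e1, e2]
    funext j
    rcases j with j | j
    · rw [m1, m0]
    · fin_cases j
      · exact congrArg QuadraticAlgebra.re key
      · exact congrArg QuadraticAlgebra.im key

/-- **`PΩ⁻_{2m+2}(F)`.** -/
theorem pp_PO_minus' [Finite F]
    (hab : ∀ z₁ z₂ : F, z₁ ^ 2 + a * z₁ * z₂ + b * z₂ ^ 2 = 0 → z₁ = 0 ∧ z₂ = 0) (hm : 2 ≤ m) {p : ℕ} [Fact p.Prime] [CharP F p]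
    [hs : IsSimpleGroup (Cfsg.POmega F (Cfsg.quadFormMinus m F a b))] :
    PP p (Cfsg.POmega F (Cfsg.quadFormMinus m F a b)) := by
  revert hs
  rw [← coe_minusForm]
  intro hs
  have hG : Good (minusForm m F a b) := by
    apply good_of_finite (nondeg_minusForm m F a b hab)
    rw [Module.finrank_fintype_fun_eq_card, Fintype.card_sum, Fintype.card_sum, Fintype.card_fin,
      Fintype.card_fin]
    omega
  have hp : ((embMinus m F a b hab).ngt ⟨(1, 0), -nf a b (1, 0), rfl⟩).c ≠ 0 := by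
    change (1 : F)⁻¹ * (-nf a b (1, 0)) ≠ 0
    simp [nf]
  have hA : AmbT (toFrame (wminus m F a b hab)) p (E (minusForm m F a b)) := by
    by_cases h2 : (2 : F) = 0
    · have hp2 : p = 2 := by
        have h3 : CharP F 2 := CharTwo.of_one_ne_zero_of_two_eq_zero one_ne_zero h2
        exact CharP.eq F ‹CharP F p› h3
      subst hp2
      exact ambT_O _ fun g hg hg2 hb => fixp_minus a b hab h2 hm hG hg hg2 hb
    · exact AmbT.of_amb (amb_O_of_two _ h2) p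
  exact pp_C (model (wminus m F a b hab) hG ⟨_, hp⟩) hA (tern_minus m a b hab) hp (by omega)

end Minus

end Orthogonal

end Cfsg.Agent.H256.War.WittNode
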