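import Mathlib
import Cfsg.Agent.H256.War.WittTern
import Cfsg.Agent.H162.GaussExc
import Cfsg.Agent.OddHalf.NI.ClosedSL

/-!
Two `p`-elements in the classical and the Chevalley groups of characteristic `p` (S2453, layer L9): every element of a
finite simple group of Lie type of characteristic `p` in one of the families below is a product of two `p`-elements.

* `pp_PSL`, `pp_PSp`, `pp_PSU`, `pp_POmegaOdd`, `pp_POmegaPlus`, `pp_POmegaMinus` : from the predicates of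
  `Def_LieTypeChar`;
* `pp_exceptional` : `G₂`, `F₄`, `E₆`, `E₇`, `E₈`; `pp_classical`.
-/

set_option autoImplicit false
set_option linter.unusedSectionVars false

namespace Cfsg.Agent.H256.War

open Cfsg
open Cfsg.Agent.ChevalleyStructure.CoxeterGeom Cfsg.Agent.Tits.Roots
open Cfsg.Agent.Nodes.Comb Cfsg.Agent.Nodes.Reps Cfsg.Agent.Nodes.BNOf
open Cfsg.Agent.Nodes.RGDLib
open Cfsg.Agent.H130.War (PP)
open Cfsg.Agent.OddHalf.NI.Mult (Coord)

/-- images of coordinates -/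
theorem coord_map {I Y Y' : Type*} [Fintype I] [DecidableEq I] [Group Y] [Group Y'] {X : (I → ℤ) → Subgroup Y}
    {F : I → Type*} [∀ i, Field (F i)] {s : ∀ i, Matrix.SpecialLinearGroup (Fin 2) (F i) →* Y}
    (C : Coord X F s) (f : Y →* Y') : Coord (fun x => (X x).map f) F (fun i => f.comp (s i)) where
  up i := by
    rw [Subgroup.coe_map, C.up, ← Set.range_comp]
    rfl
  lo i := by
    rw [Subgroup.coe_map, C.lo, ← Set.range_comp]
    rfl

theorem pp_of_equiv {p : ℕ} {G K : Type*} [Group G] [Group K] (e : G ≃* K) (h : PP p K) : PP p G := by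
  intro g
  obtain ⟨x, y, e1, ⟨a, ha⟩, ⟨b, hb⟩⟩ := h (e g)
  refine ⟨e.symm x, e.symm y, ?_, ⟨a, ?_⟩, ⟨b, ?_⟩⟩
  · rw [← map_mul, ← e1, e.symm_apply_apply]
  · rw [← map_pow, ha, map_one]
  · rw [← map_pow, hb, map_one]

/-! ### Linear groups -/

open Cfsg.Agent.LieRecognition.BNCox (cA) in
theorem pp_PSL' {F : Type*} [Field F] [Finite F] {n : ℕ} (hn : 0 < n) {p : ℕ} [Fact p.Prime] [CharP F p]
    [IsSimpleGroup (Matrix.ProjectiveSpecialLinearGroup (Fin (n + 1)) F)] :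
    PP p (Matrix.ProjectiveSpecialLinearGroup (Fin (n + 1)) F) := by
  have : Finite (cA n).Group :=
    Cfsg.Agent.Nodes.RootsA.finite_W (cA n).toCoxeterSystem (Cfsg.Agent.Nodes.RootsA.isCartan n)
  have : Nonempty (Fin n) := ⟨⟨0, hn⟩⟩
  exact H928.War.Rgd.pp
    (Nodes.RGDTypeA.rgd_psl (F := F) (p := p) (cA n).toCoxeterSystem (Nodes.RootsA.isCartan n))
    (Nodes.RGDTypeA.G1_psl_eq_top _ _) (coord_map OddHalf.NI.ClosedSL.coord (Nodes.RGDTypeA.pr n F))
    (H538.MFacts.irr_A n)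

/-! ### Orthogonal groups of plus type -/

section TypeD

open Cfsg.Agent.Nodes.WittAll Cfsg.Agent.Nodes.WittRoot
open Cfsg.Agent.TitsThree Cfsg.Agent.TitsThree.Siegel Cfsg.Agent.TitsThree.WittFrame Cfsg.Agent.TitsThree.WittWeyl
  Cfsg.Agent.TitsThree.FrameCN
open Cfsg.Agent.Nodes.TypeC (wt ng)
open Cfsg.Agent.Nodes.TypeD
open Cfsg.Agent.Nodes.WittRGD (Tor)
open Cfsg.Agent.Nodes
open Cfsg.Agent.H162.GaussDec Cfsg.Agent.H256.War.RankOne

variable {F : Type*} [Field F] {V : Type*} [AddCommGroup V] [Module F V] {H : HForm F V}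
variable {n : ℕ} {Fr : Frame H (Fin (n + 2))} {G0 : Subgroup (V ≃ₗ[F] V)} {p : ℕ}

theorem node_D (hA : Amb Fr G0) [Finite V] [Fact p.Prime] [CharP F p] (h0 : ∀ p : Fr.Adm, p = 1)
    {W : Type*} [Group W] (cs : CoxeterSystem (M n) W) (i : Fin (n + 2)) :
    ∃ m, m ∈ G0 ∧ m * (WittRGDD.nn Fr i)⁻¹ ∈ Tor Fr G0 ∧ R1 (Tor Fr G0) (WittRGDD.rg Fr) i m := by
  have : Finite (V ≃ₗ[F] V) := Finite.of_injective (fun g : V ≃ₗ[F] V => (g : V → V)) DFunLike.coe_injective
  have : Finite W := finite_W cs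
  have R := rgdD hA h0 (p := p) cs
  have hsr := WittRGDD.rg_sr (Fr := Fr) i
  have hnsr := WittRGDD.rg_neg_sr (Fr := Fr) i
  have hne' := ok_nx i
  have hT : ∀ t : F, t ≠ 0 → nX Fr (i, true) (nx i) t * (WittRGDD.nn Fr i)⁻¹ ∈ Tor Fr G0 := fun t ht =>
    WittRGDD.tor_of_mono hA (WittRGDD.nX_mem hA _ _ _) (WittRGDD.nn_mem hA _) (WittRGDD.mono_nX' i ht)
      (WittRGDD.mono_nn i)
  refine ⟨nX Fr (i, true) (nx i) 1, WittRGDD.nX_mem hA _ _ _, hT 1 one_ne_zero, ?_⟩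
  refine R1_of_param R (P := {t : F // t ≠ 0}) (fun t => Fr.X (i, true) (nx i) t) (fun t => nX Fr (i, true) (nx i) t)
    ?_ ?_ ?_ ?_ ?_ ⟨1, one_ne_zero⟩
  · intro u hu hu1
    rw [hsr] at hu
    obtain ⟨t, rfl⟩ := hu
    exact ⟨⟨t, by rintro rfl; exact hu1 (Fr.X_zero _ _)⟩, rfl⟩
  · intro q
    rw [hsr]
    exact ⟨q, rfl⟩
  · intro q
    rw [hsr, hnsr]
    exact ⟨_, ⟨-(q : F)⁻¹, rfl⟩, _, ⟨(q : F), rfl⟩, rfl⟩
  · exact fun q => rp_of_mul_mem R (hT q q.2)
  · rintro ⟨a, ha⟩ ⟨b, hb⟩ ⟨c, hc⟩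
    exact ⟨⟨_, neg_ne_zero.2 (mul_ne_zero (mul_ne_zero ha (inv_ne_zero hb)) hc)⟩,
      WittNode.nX_tern hA.V0 hne' ha hb hc⟩

end TypeD

section Plus

open Cfsg.Agent.Nodes Cfsg.Agent.Nodes.WittAll Cfsg.Agent.Nodes.WittInst
open Cfsg.Agent.TitsThree Cfsg.Agent.TitsThree.Siegel Cfsg.Agent.TitsThree.SiegelGen
  Cfsg.Agent.TitsThree.WittFrame Cfsg.Agent.TitsThree.WBridge Cfsg.Agent.TitsThree.WittWeyl
  Cfsg.Agent.TitsThree.FrameCN
open QuadraticMap
open Cfsg.Agent.LieClassical Cfsg.Agent.LieClassical.OrthCore Cfsg.Agent.LieClassical.OrthTrans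
open Cfsg.Agent.LieClassical.OrthSimple Cfsg.Agent.LieClassical.OrthFinite
open Cfsg.Agent.LieClassical.OrthForms
open Cfsg.Agent.TitsThree.KSideO Cfsg.Agent.TitsThree.StdData
open Cfsg.Agent.Nodes.WittRGD (Tor)
open Cfsg.Agent.Nodes.TypeD
open Cfsg.Agent.H162.GaussDec Cfsg.Agent.H256.War.RankOne

variable {F : Type*} [Field F]

theorem pp_PO_plus' [Finite F] (n : ℕ) {p : ℕ} [Fact p.Prime] [CharP F p]
    [hs : IsSimpleGroup (Cfsg.POmega F (Cfsg.quadFormPlus (n + 3) F))] :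
    PP p (Cfsg.POmega F (Cfsg.quadFormPlus (n + 3) F)) := by
  revert hs
  rw [← coe_plusForm]
  intro hs
  have hG : Good (plusForm (n + 3) F) := by
    apply good_of_finite (nondeg_plusForm (n + 3) F)
    rw [Module.finrank_fintype_fun_eq_card, Fintype.card_sum, Fintype.card_fin]
    omega
  have hA := amb_plus (F := F) (n + 3)
  have h0 := adm_plus (F := F) (n + 3)
  have hW : Finite (M (n + 1)).Group := finite_W (M (n + 1)).toCoxeterSystem
  have R := rgdD_model (wplus (n + 3) F) hG hA h0 (p := p) (M (n + 1)).toCoxeterSystem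
  refine pp_of_R1 R (G1D_eq_top (wplus (n + 3) F) (toPOmega hG) (toPOmega_surjective hG) h0 _) (fun i => ?_)
    (H538.MFacts.irr_D (n + 1) (by omega))
  obtain ⟨m, hm, hmT, h1⟩ := node_D hA h0 (p := p) (M (n + 1)).toCoxeterSystem i
  have hk : ∀ z ∈ (toPOmega hG).ker, (z : _ ≃ₗ[F] _) ∈ Tor (toFrame (wplus (n + 3) F)) (E (plusForm (n + 3) F)) := by
    intro z hz
    refine ⟨z.2, fun x => ?_⟩
    obtain ⟨a, ha⟩ := scalar_of_center hG (center_of_toPOmega hG hz)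
    refine ⟨a, ?_, ha _⟩
    rintro rfl
    have h1 : z.1 ((toFrame (wplus (n + 3) F)).b x) = 0 := by rw [ha, zero_smul]
    exact WittRGD.b_ne_zero x (z.1.map_eq_zero_iff.1 h1)
  refine ⟨toPOmega hG ⟨m, hm⟩, ?_, R1_map (toPOmega hG) hk (rgD_le _ hA _) (rgD_le _ hA _) hm h1⟩
  rw [← map_inv, ← map_mul]
  exact Subgroup.mem_map_of_mem _ hmT

end Plus

/-! ### Chevalley groups -/

section Chev

open Cfsg.Lie Cfsg.Agent.ChevalleyStructure Cfsg.Agent.ChevalleyStructure.CoxeterGeomTypes Cfsg.Agent.Nodes.RGDChev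

theorem pp_group {D : ChevalleyDatum} {l : ℕ} {M : CoxeterMatrix (Fin l)} (hp : IsType D l M) (hl : 0 < l)
    {K : Type*} [Field K] [Finite K] {p : ℕ} [CharP K p]
    (hconn : ∀ J : Set (Fin l), J.Nonempty → J ≠ Set.univ → ∃ a ∈ J, ∃ b, b ∉ J ∧ M a b ≠ 2)
    [IsSimpleGroup ↥(D.group K)] : PP p ↥(D.group K) := by
  have : Fact p.Prime := ⟨CharP.char_is_prime K p⟩
  have := finite_W hp M.toCoxeterSystem
  have : Nonempty (Fin l) := ⟨⟨0, hl⟩⟩
  exact H928.War.Rgd.pp (rgd (K := K) hp M.toCoxeterSystem p) (G1_eq_top hp _) (H162.GaussExc.coord hp) hconn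

end Chev

/-! ### From the predicates -/

section Pred

variable {p : ℕ} {G : Type*} [Group G] [IsSimpleGroup G]

theorem simple_of {K : Type*} [Group K] (e : G ≃* K) : IsSimpleGroup K := e.symm.isSimpleGroup

theorem pp_PSL (hG : IsPSLChar p G) : PP p G := by
  obtain ⟨F, _, _, _, n, hn, -, ⟨e⟩⟩ := hG
  have : Fact p.Prime := Nodes.RGDClass.fact_prime (F := F)
  obtain ⟨n, rfl⟩ : ∃ k, n = k + 1 := ⟨n - 1, by omega⟩
  have := simple_of e
  exact pp_of_equiv e (pp_PSL' (by omega))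

theorem pp_PSp (hG : IsPSpChar p G) : PP p G := by
  obtain ⟨F, _, _, _, m, hm, -, ⟨e⟩⟩ := hG
  have : Fact p.Prime := Nodes.RGDClass.fact_prime (F := F)
  have := simple_of e
  exact pp_of_equiv e (WittNode.pp_PSp' (by omega))

theorem pp_PSU (hG : IsPSUChar p G) : PP p G := by
  obtain ⟨F, _, _, _, n, q, hF, hn, -, ⟨e⟩⟩ := hG
  have : Fact p.Prime := Nodes.RGDClass.fact_prime (F := F)
  have := simple_of e
  exact pp_of_equiv e (WittNode.pp_PSU' hF hn)

theorem pp_POmegaOdd (hG : IsPOmegaOddChar p G) : PP p G := by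
  obtain ⟨F, _, _, _, m, hm, hodd, ⟨e⟩⟩ := hG
  have : Fact p.Prime := Nodes.RGDClass.fact_prime (F := F)
  have := simple_of e
  have h2 : (2 : F) ≠ 0 := by
    intro h2
    have h3 : CharP F 2 := CharTwo.of_one_ne_zero_of_two_eq_zero one_ne_zero h2
    obtain ⟨k, -, hk⟩ := FiniteField.card F 2
    rw [hk] at hodd
    exact absurd hodd (by
      rw [Nat.not_odd_iff_even]
      exact (even_two).pow_of_ne_zero k.ne_zero)
  exact pp_of_equiv e (WittNode.pp_PO_odd' h2 (by omega))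

theorem pp_POmegaPlus (hG : IsPOmegaPlusChar p G) : PP p G := by
  obtain ⟨F, _, _, _, m, hm, ⟨e⟩⟩ := hG
  have : Fact p.Prime := Nodes.RGDClass.fact_prime (F := F)
  obtain ⟨n, rfl⟩ : ∃ n, m = n + 3 := ⟨m - 3, by omega⟩
  have := simple_of e
  exact pp_of_equiv e (pp_PO_plus' n)

theorem pp_POmegaMinus (hG : IsPOmegaMinusChar p G) : PP p G := by
  obtain ⟨F, _, _, _, m, a, b, hm, hab, ⟨e⟩⟩ := hG
  have : Fact p.Prime := Nodes.RGDClass.fact_prime (F := F)
  have := simple_of e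
  exact pp_of_equiv e (WittNode.pp_PO_minus' a b hab (by omega))

/-- **The classical groups.** -/
theorem pp_classical (hG : IsPSLChar p G ∨ IsPSpChar p G ∨ IsPSUChar p G ∨ IsPOmegaOddChar p G ∨
    IsPOmegaPlusChar p G ∨ IsPOmegaMinusChar p G) : PP p G := by
  rcases hG with h | h | h | h | h | h
  · exact pp_PSL h
  · exact pp_PSp h
  · exact pp_PSU h
  · exact pp_POmegaOdd h
  · exact pp_POmegaPlus h
  · exact pp_POmegaMinus h

/-- **The exceptional Chevalley groups.** -/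
theorem pp_exceptional (hG : IsExceptionalChevChar p G) : PP p G := by
  obtain ⟨F, _, _, _, h⟩ := hG
  have : Fact p.Prime := Nodes.RGDClass.fact_prime (F := F)
  rcases h with ⟨-, ⟨e⟩⟩ | ⟨⟨e⟩⟩ | ⟨⟨e⟩⟩ | ⟨⟨e⟩⟩ | ⟨⟨e⟩⟩
  · have := simple_of e
    exact pp_of_equiv e (pp_group (l := 2) (M := CoxeterMatrix.G₂)
      (by simp [Nodes.RGDChev.IsType, Nodes.RGDChev.typeList])
      (by norm_num) H538.MFacts.irr_G2)
  · have := simple_of e
    exact pp_of_equiv e (pp_group (l := 4) (M := CoxeterMatrix.F₄)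
      (by simp [Nodes.RGDChev.IsType, Nodes.RGDChev.typeList])
      (by norm_num) H538.MFacts.irr_F4)
  · have := simple_of e
    exact pp_of_equiv e (pp_group (l := 6) (M := CoxeterMatrix.E₆)
      (by simp [Nodes.RGDChev.IsType, Nodes.RGDChev.typeList])
      (by norm_num) H538.MFacts.irr_E6)
  · have := simple_of e
    exact pp_of_equiv e (pp_group (l := 7) (M := CoxeterMatrix.E₇)
      (by simp [Nodes.RGDChev.IsType, Nodes.RGDChev.typeList])
      (by norm_num) H538.MFacts.irr_E7)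
  · have := simple_of e
    exact pp_of_equiv e (pp_group (l := 8) (M := CoxeterMatrix.E₈)
      (by simp [Nodes.RGDChev.IsType, Nodes.RGDChev.typeList])
      (by norm_num) H538.MFacts.irr_E8)

end Pred

end Cfsg.Agent.H256.War
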